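import Cfsg.Agent.H818.Gen.Exc

/-!
# `GenIn m p` from `Gen p K₀` (hub file, helper818)
-/

set_option autoImplicit false
set_option linter.dupNamespace false
set_option linter.unusedSectionVars false

namespace Cfsg.Agent.H818.Gen

open Cfsg Subgroup

section abs

variable {Y : Type*} [Group Y] {K₀ : Type*} [Group K₀] {ι : K₀ →* Y} {p : ℕ} [hp : Fact p.Prime]
  (hι : Function.Injective ι) {σ : MulAut Y}
  (hn : ∀ y, σ y = y → ∀ a, ∃ b, ι b = y * ι a * y⁻¹) (hcc : ∀ z : Y, (∀ a, z * ι a = ι a * z) → z = 1)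

include hι hn hcc in
/-- `GenY` from `Gen` -/
theorem genY_of_gen (h : Gen p K₀) : GenY ι σ p := by
  intro E hE hσ hE2
  obtain ⟨f, hf⟩ := exists_hom hι hn hσ
  have hfi : Function.Injective f := by
    rw [injective_iff_map_eq_one]
    intro y hy
    refine Subtype.ext (hcc _ fun a => ?_)
    have h1 := hf y a
    rw [hy] at h1
    exact (eq_mul_inv_iff_mul_eq.1 h1).symm
  have hcomm : ∀ a b : ↥E, a * b = b * a := fun a b => hE.1.1.1 a b
  have hR : IsElementaryAbelian p f.range := by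
    refine ⟨⟨⟨?_⟩⟩, ?_⟩
    · rintro ⟨_, a, rfl⟩ ⟨_, b, rfl⟩
      refine Subtype.ext ?_
      show f a * f b = f b * f a
      rw [← map_mul, hcomm, map_mul]
    · rintro _ ⟨a, rfl⟩
      rw [← map_pow]
      have : a ^ p = 1 := Subtype.ext (hE.2 a.1 a.2)
      rw [this, map_one]
  have hcard : Nat.card ↥f.range = Nat.card ↥E := (Nat.card_congr (MonoidHom.ofInjective hfi).toEquiv).symm
  have h1 := h f.range hR (by rw [hcard]; exact hE2)
  rw [eq_top_iff]
  have h2 : Gam p f.range ≤ GamY ι p E := by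
    refine (closure_le _).2 ?_
    rintro a ⟨F, hF, hi, ha⟩
    refine mem_GamY (F := (F.comap f).map E.subtype) ?_ ?_ ?_
    · rintro _ ⟨y, -, rfl⟩
      exact y.2
    · have h3 : ((F.comap f).map E.subtype).relIndex E = (F.comap f).index := by
        have h4 := relIndex_map_map_of_injective (F.comap f) (⊤ : Subgroup ↥E) (f := E.subtype) E.subtype_injective
        rw [← MonoidHom.range_eq_map, range_subtype, relIndex_top_right] at h4
        exact h4
      rw [h3, index_comap, ← hi]
      rfl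
    · rintro _ ⟨y, hy, rfl⟩
      have h4 : f y a = a := ha _ hy
      have h5 := hf y a
      rw [h4] at h5
      show (y : Y) * ι a = ι a * y
      exact (eq_mul_inv_iff_mul_eq.1 h5).symm
  rw [← h1]
  exact h2

/-- `GenY` if `Y^σ` has no large elementary abelian subgroups -/
theorem genY_of_not_dvd [Finite ↥(fixedSubgroup σ)] (h : ¬ p ^ 2 ∣ Nat.card ↥(fixedSubgroup σ)) : GenY ι σ p := by
  intro E hE hσ hE2
  exfalso
  have hle : E ≤ fixedSubgroup σ := fun y hy => hσ y hy
  have : Finite ↥E := Finite.of_injective _ (inclusion_injective hle)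
  have h1 : IsPGroup p ↥E := by
    intro a
    exact ⟨1, by rw [pow_one]; exact Subtype.ext (hE.2 a.1 a.2)⟩
  obtain ⟨n, hn⟩ := h1.exists_card_eq
  have h2 : 2 ≤ n := by
    rw [hn] at hE2
    exact (Nat.pow_le_pow_iff_right hp.out.one_lt).1 hE2
  exact h ((pow_dvd_pow p h2).trans (hn ▸ card_dvd_of_le hle))

end abs

section mdata

open Cfsg.Agent.H316.U6 Cfsg.Lie Cfsg.Agent.Nodes.RGDChev

universe u v

variable {D : ChevalleyDatum} {l : ℕ} {M : CoxeterMatrix (Fin l)} {hp : IsType D l M} {r q : ℕ}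
  [hr : Fact r.Prime] {K₀ : Type v} [Group K₀]

/-- `GenIn` from `Gen` -/
theorem genIn_of_gen (m : MData hp r q K₀) {p : ℕ} [hpp : Fact p.Prime]
    (hc : ∀ z, (∀ a, z * m.ι a = m.ι a * z) → z = 1) (h : Gen p K₀) : GenIn m p :=
  genY_of_gen m.inj m.norm hc h

end mdata

end Cfsg.Agent.H818.Gen
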